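import Cfsg.Agent.Lib.Helper51.Zass.Defs
import Cfsg.Agent.Lib.Helper63.Zass.FpfTools
import Cfsg.Agent.S4337

/-!
# Project ZASS (S0690): package [FIN-B]

In a perfect f.p.f. group `N3 G` is neither of order 3 nor a line.
-/

set_option autoImplicit false

namespace Cfsg.Agent.Lib.Helper10.Zass

open Cfsg.Agent.Lib.Helper51.Zass

universe u

/-- `N3 G` is a normal subgroup. -/
theorem n3_normal (G : Type u) [Group G] : (N3 G).Normal := by
  constructor
  intro n hn g
  have hle : N3 G ≤ (N3 G).comap (MulAut.conj g).toMonoidHom := by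
    unfold N3
    rw [Subgroup.closure_le]
    intro x hx
    show MulAut.conj g x ∈ Subgroup.closure {g : G | orderOf g = 3}
    apply Subgroup.subset_closure
    show orderOf (MulAut.conj g x) = 3
    rw [← hx]
    exact orderOf_injective (MulAut.conj g).toMonoidHom (MulAut.conj g).injective x
  have := hle hn
  simpa [MulAut.conj_apply] using this

/-- every subgroup of order 3 lies in `N3 G`. -/
theorem point_le_n3 {G : Type u} [Group G] (P : Subgroup G) (hP : Nat.card P = 3) :
    P ≤ N3 G := by
  intro x hx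
  by_cases h1 : x = 1
  · rw [h1]; exact one_mem _
  · apply Subgroup.subset_closure
    have hdvd : orderOf (⟨x, hx⟩ : P) ∣ 3 := hP ▸ orderOf_dvd_natCard _
    rw [Subgroup.orderOf_mk] at hdvd
    rcases (Nat.dvd_prime Nat.prime_three).mp hdvd with h | h
    · exact absurd (orderOf_eq_one_iff.mp h) h1
    · exact h

/-- (*) a perfect f.p.f. group has no normal subgroup of order 3. -/
theorem no_normal_point {G : Type u} [Group G] [Finite G] (hL : IsFpfLin G)
    (hperf : commutator G = ⊤) (P : Subgroup G) (hP : Nat.card P = 3) (hPn : P.Normal) :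
    False := by
  classical
  have h3 : Fact (Nat.Prime 3) := ⟨Nat.prime_three⟩
  have hcyc : IsCyclic P := isCyclic_of_prime_card hP
  -- conjugation is trivial on `P`
  have hcent : ∀ g : G, ∀ x ∈ P, g * x * g⁻¹ = x := by
    intro g x hx
    have h1 := Cfsg.Agent.Lib.Helper63.Zass.perfect_hom_solvable hperf
      ((IsCyclic.mulAutMulEquiv (G := P)).toMonoidHom.comp (MulAut.conjNormal (H := P))) g
    have h2 : MulAut.conjNormal (H := P) g = 1 := by
      apply (IsCyclic.mulAutMulEquiv (G := P)).injective
      rw [map_one]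
      exact h1
    have h3 := congrArg (fun α : MulAut P => ((α ⟨x, hx⟩ : P) : G)) h2
    simpa [MulAut.conjNormal_apply] using h3
  -- an element of order 3
  obtain ⟨x, hx⟩ := exists_prime_orderOf_dvd_card' (G := P) 3 (by rw [hP])
  have hw : orderOf (x : G) = 3 := by rw [Subgroup.orderOf_coe]; exact hx
  -- a Sylow 3-subgroup containing `P`
  have hPp : IsPGroup 3 P := IsPGroup.of_card (n := 1) (by rw [hP]; norm_num)
  obtain ⟨S, hPS⟩ := hPp.exists_le_sylow
  have hScyc : IsCyclic (S : Subgroup G) := by
    rcases Cfsg.Agent.Lib.Helper63.Zass.fpf_pgroup_shape hL 3 (S : Subgroup G) S.isPGroup' with h | h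
    · exact h
    · exact absurd h.1 (by norm_num)
  let _ : CommGroup (S : Subgroup G) := IsCyclic.commGroup
  have htr := Cfsg.Agent.Lib.Helper63.Zass.perfect_hom_solvable hperf
    (MonoidHom.transfer (MonoidHom.id (S : Subgroup G))) (x : G)
  have key : ∀ (k : ℕ) (g₀ : G), g₀⁻¹ * (x : G) ^ k * g₀ ∈ (S : Subgroup G) →
      g₀⁻¹ * (x : G) ^ k * g₀ = (x : G) ^ k := by
    intro k g₀ _
    have := hcent g₀⁻¹ ((x : G) ^ k) (P.pow_mem x.2 k)
    rwa [inv_inv] at this
  rw [MonoidHom.transfer_eq_pow (MonoidHom.id (S : Subgroup G)) (x : G) key] at htr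
  have hpow : (x : G) ^ (S : Subgroup G).index = 1 := by
    have := congrArg Subtype.val htr
    simpa using this
  have hdvd : orderOf (x : G) ∣ (S : Subgroup G).index := orderOf_dvd_of_pow_eq_one hpow
  rw [hw] at hdvd
  exact S.not_dvd_index hdvd

/-- the conjugation action on the set of subgroups of order 3. -/
def conjPts (G : Type u) [Group G] : MulAction G {P : Subgroup G // Nat.card P = 3} where
  smul g P := ⟨P.1.map (MulAut.conj g).toMonoidHom,
    (Nat.card_congr (P.1.equivMapOfInjective _ (MulAut.conj g).injective).symm.toEquiv).trans P.2⟩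
  one_smul P := by
    apply Subtype.ext
    show P.1.map (MulAut.conj (1 : G)).toMonoidHom = P.1
    ext x
    rw [Subgroup.mem_map_equiv, MulAut.conj_symm_apply]
    simp
  mul_smul g h P := by
    apply Subtype.ext
    show P.1.map (MulAut.conj (g * h)).toMonoidHom =
      (P.1.map (MulAut.conj h).toMonoidHom).map (MulAut.conj g).toMonoidHom
    ext x
    rw [Subgroup.mem_map_equiv, Subgroup.mem_map_equiv, Subgroup.mem_map_equiv,
      MulAut.conj_symm_apply, MulAut.conj_symm_apply, MulAut.conj_symm_apply]
    simp [mul_assoc]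

/-- **[FIN-B]** in a perfect f.p.f. group `N3 G` is neither of order 3 nor a line. -/
theorem pkgFinB (h24 : PkgStr24.{u}) (hUI : PkgUI.{u}) : PkgFinB.{u} := by
  intro G _ _ hL hperf
  classical
  refine ⟨fun hcard => no_normal_point hL hperf (N3 G) hcard (n3_normal G), fun hline => ?_⟩
  have h4 := (h24 G (hUI G hL) (N3 G) hline).1
  have hset : {P : Subgroup G | Nat.card P = 3 ∧ P ≤ N3 G} = {P : Subgroup G | Nat.card P = 3} := by
    ext P
    exact ⟨fun h => h.1, fun h => ⟨h, point_le_n3 P h⟩⟩
  rw [hset] at h4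
  have hcard : Nat.card {P : Subgroup G // Nat.card P = 3} = 4 := by
    rw [← h4]
    exact Nat.card_coe_set_eq {P : Subgroup G | Nat.card P = 3}
  let _ := conjPts G
  have hsolv : Group.IsSolvable (Equiv.Perm (Fin 4)) := Cfsg.Agent.S4337.perm_fin4_solvable
  have htriv : ∀ g : G, MulAction.toPermHom G {P : Subgroup G // Nat.card P = 3} g = 1 := by
    intro g
    have h1 := Cfsg.Agent.Lib.Helper63.Zass.perfect_hom_solvable hperf
      ((Equiv.permCongrHom (Finite.equivFinOfCardEq hcard)).toMonoidHom.comp
        (MulAction.toPermHom G {P : Subgroup G // Nat.card P = 3})) g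
    apply (Equiv.permCongrHom (Finite.equivFinOfCardEq hcard)).injective
    rw [map_one]
    exact h1
  have hne : Nonempty {P : Subgroup G // Nat.card P = 3} := by
    have : 0 < Nat.card {P : Subgroup G // Nat.card P = 3} := by rw [hcard]; norm_num
    exact (Nat.card_pos_iff.mp this).1
  obtain ⟨P⟩ := hne
  have hfix : ∀ g : G, P.1.map (MulAut.conj g).toMonoidHom = P.1 := by
    intro g
    have h1 := congrArg (fun σ : Equiv.Perm {P : Subgroup G // Nat.card P = 3} => (σ P).1) (htriv g)
    exact h1
  have hPn : P.1.Normal := by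
    constructor
    intro n hn g
    rw [← hfix g]
    exact ⟨n, hn, rfl⟩
  exact no_normal_point hL hperf P.1 P.2 hPn

end Cfsg.Agent.Lib.Helper10.Zass
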